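import Cfsg.Agent.Lib.Helper99.AutPSU.TIso
import Cfsg.Agent.Lib.Helper69.AutPSUFINB
import Cfsg.Agent.Lib.Helper74.AutPSUAlg
import Cfsg.Agent.Lib.Helper62.AutPSUD
import Cfsg.Agent.Lib.Helper62.AutPSUHB
import Cfsg.Agent.Lib.Helper50.AutPSUB
import Cfsg.Agent.Lib.Helper50.AutPSUC
import Cfsg.Agent.Lib.Helper64.AutPSUG
import Cfsg.Agent.Lib.Helper24.AutPSUFINA

set_option autoImplicit false
set_option linter.unusedSectionVars false
set_option linter.unusedVariables false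

/-!
`Aut(PSU_n(q)) = PΓU_n(q)`: the assembly of the ladder.
-/

namespace Cfsg.Agent.Lib.Helper99.AutPSU

open Matrix MatrixGroups Cfsg.Agent.Lib.Helper17

variable {F : Type*} [Field F] [Fintype F] {n q : ℕ}

theorem permStmt (hF : Fintype.card F = q ^ 2) (hn : 3 ≤ n) : PermStmt n F q := by
  obtain ⟨p, hp⟩ := CharP.exists F
  have := hp
  have : Fact p.Prime := ⟨CharP.char_is_prime F p⟩
  exact Cfsg.Agent.Lib.Helper62.permStmt_of (p := p) hF hn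
    (Cfsg.Agent.Lib.Helper50.AutPSUB.sylStmt hF hn) (Cfsg.Agent.Lib.Helper50.AutPSUC.opStmt hF hn)

variable {β : MulAut (Cfsg.PSU n F q)} {a b : Fin n → F}

theorem algConcl (hF : Fintype.card F = q ^ 2) (hn : 3 ≤ n) (hN : Nrm β a b) :
    ∃ (σ : F ≃+* F) (c : F), AlgConcl hF hN.hp β σ c := by
  obtain ⟨h1, h2, h3⟩ := Cfsg.Agent.Lib.Helper62.AutPSUT.t_tb hF hN
  exact Cfsg.Agent.Lib.Helper74.AutPSU.alg hF (hW (q := q) (a := a) (b := b)) hW_add hW_smul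
    (hW_conj hF) (T1 hF hN.hp β) (T2 hF hN.hp β) (tb hF hN.hp β)
    (fun w k _ => t_mem hF hN.hp w k) (t_mul hF hN) (t_inj hF hN) (t_X hF hN) h1 h2 h3
    (Cfsg.Agent.Lib.Helper62.AutPSUT.t_hb hF hN) (t_iso hF (permStmt hF hn) hN) (t_dec hF hN.hp) (t_ne hF hn hN.hp)

theorem nrm_form (hF : Fintype.card F = q ^ 2) (hn : 3 ≤ n) (hGen : GenStmt n F q)
    (hN : Nrm β a b) : ∃ (M : ↥(Cfsg.GU n F q)) (σ : F ≃+* F), β = cG M * fl σ := by
  obtain ⟨σ, c, h⟩ := algConcl hF hn hN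
  obtain ⟨Γ, hadd, hsmul, hH, hQ, hX⟩ := Cfsg.Agent.Lib.Helper69.AutPSUT.exists_Gamma hF hN σ c h
  obtain ⟨M, hM⟩ :=
    Cfsg.Agent.Lib.Helper24.AutPSUT.exists_gu_of_semilinear hF σ c h.1 h.2.1 Γ hadd hsmul hH
  refine ⟨M, σ, ?_⟩
  let S : Subgroup ↥(Cfsg.SU n F q) :=
    { carrier := {x | β (pm x) = (cG M * fl σ : MulAut (Cfsg.PSU n F q)) (pm x)}
      mul_mem' := by
        intro x y hx hy
        simp only [Set.mem_ofPred_eq] at hx hy ⊢
        rw [pm_mul, map_mul, map_mul, hx, hy]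
      one_mem' := by
        simp only [Set.mem_ofPred_eq]
        rw [pm_one, map_one, map_one]
      inv_mem' := by
        intro x hx
        simp only [Set.mem_ofPred_eq] at hx ⊢
        rw [pm_inv, map_inv, map_inv, hx] }
  have hS : S = ⊤ := by
    rw [eq_top_iff, ← hGen a b hN.hp.isoA (hN.hp.isoB hF) (by rw [hN.hp.ab]; exact one_ne_zero)]
    apply sup_le
    · intro x hx
      show β (pm x) = (cG M * fl σ : MulAut (Cfsg.PSU n F q)) (pm x)
      rw [hM x (lq β a x) (hQ x hx), lq_spec hN hx]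
    · intro x hx
      show β (pm x) = (cG M * fl σ : MulAut (Cfsg.PSU n F q)) (pm x)
      rw [hM x (lb β b x) (hX x hx), lb_spec hN hx]
  ext y
  obtain ⟨x, rfl⟩ := pm_surjective y
  have : x ∈ S := by rw [hS]; trivial
  exact this

/-- **`Aut(PSU_n(q)) = PΓU_n(q)`**, `n ≥ 3`. -/
theorem autForm (hF : Fintype.card F = q ^ 2) (hn : 3 ≤ n) (h32 : ¬(n = 3 ∧ q = 2)) :
    AutForm n F q := by
  intro β
  obtain ⟨a, ha1, ha2⟩ := exists_isotropic_ne_zero hF (n := n) (by omega)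
  obtain ⟨b, hp⟩ := exists_HP hF (a := a) ⟨ha1, ha2⟩
  obtain ⟨g, hN⟩ := normalize hF (permStmt hF hn) β hp
  obtain ⟨M, σ, e⟩ := nrm_form hF hn (Cfsg.Agent.Lib.Helper64.AutPSUG.genStmt hF hn h32) hN
  refine ⟨g * M, σ, ?_⟩
  rw [map_mul, mul_assoc, ← e, mul_inv_cancel_left]

end Cfsg.Agent.Lib.Helper99.AutPSU
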