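import Cfsg.Agent.Lib.Helper99.AutPSU.Defs
import Cfsg.Agent.Lib.Helper17.UnitSimple
import Cfsg.Agent.Lib.Helper50.SUCenter

set_option autoImplicit false
set_option linter.unusedSectionVars false
set_option linter.unusedVariables false

/-!
Geometry of `X a`, `Q a` relative to a hyperbolic pair `(a, b)`.
-/

namespace Cfsg.Agent.Lib.Helper99.AutPSU

open Matrix MatrixGroups Cfsg.Agent.Lib.Helper17

variable {F : Type*} [Field F] [Fintype F] {n q : ℕ}

/-- hyperbolic pair -/
structure HP (q : ℕ) (a b : Fin n → F) : Prop where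
  a0 : Cfsg.hermForm n F q a a = 0
  b0 : Cfsg.hermForm n F q b b = 0
  ab : Cfsg.hermForm n F q a b = 1

theorem q_ne_zero (hF : Fintype.card F = q ^ 2) : q ≠ 0 := by
  have := two_le_of_card_sq hF; omega

theorem herm_zero_comm (hF : Fintype.card F = q ^ 2) {x y : Fin n → F}
    (h : Cfsg.hermForm n F q x y = 0) : Cfsg.hermForm n F q y x = 0 := by
  rw [← hermForm_conj hF, h, zero_pow (q_ne_zero hF)]

theorem herm_neg_left (x y : Fin n → F) :
    Cfsg.hermForm n F q (-x) y = - Cfsg.hermForm n F q x y := by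
  have := hermForm_smul_left q n (-1 : F) x y
  rwa [neg_one_smul, neg_one_mul] at this

theorem herm_zero_left (y : Fin n → F) : Cfsg.hermForm n F q 0 y = 0 := by
  simp [Cfsg.hermForm]

theorem herm_zero_right (hF : Fintype.card F = q ^ 2) (y : Fin n → F) :
    Cfsg.hermForm n F q y 0 = 0 := herm_zero_comm hF (herm_zero_left y)

namespace HP

variable {a b : Fin n → F}

theorem ba (hF : Fintype.card F = q ^ 2) (hp : HP q a b) : Cfsg.hermForm n F q b a = 1 := by
  rw [← hermForm_conj hF, hp.ab, one_pow]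

theorem symm (hF : Fintype.card F = q ^ 2) (hp : HP q a b) : HP q b a :=
  ⟨hp.b0, hp.a0, hp.ba hF⟩

theorem a_ne (hp : HP q a b) : a ≠ 0 := by
  rintro rfl
  have := hp.ab
  rw [herm_zero_left] at this
  exact zero_ne_one this

theorem b_ne (hF : Fintype.card F = q ^ 2) (hp : HP q a b) : b ≠ 0 := (hp.symm hF).a_ne

theorem isoA (hp : HP q a b) : Iso q a := ⟨hp.a_ne, hp.a0⟩
theorem isoB (hF : Fintype.card F = q ^ 2) (hp : HP q a b) : Iso q b := ⟨hp.b_ne hF, hp.b0⟩

end HP

/-- projection to `⟨a,b⟩^⊥` -/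
def pw (q : ℕ) (a b v : Fin n → F) : Fin n → F :=
  v - Cfsg.hermForm n F q v b • a - Cfsg.hermForm n F q v a • b

theorem pw_a (hF : Fintype.card F = q ^ 2) {a b : Fin n → F} (hp : HP q a b) (v : Fin n → F) :
    Cfsg.hermForm n F q (pw q a b v) a = 0 := by
  simp only [pw, hermForm_sub_left, hermForm_smul_left, hp.a0, hp.ba hF]
  ring

theorem pw_b (hF : Fintype.card F = q ^ 2) {a b : Fin n → F} (hp : HP q a b) (v : Fin n → F) :
    Cfsg.hermForm n F q (pw q a b v) b = 0 := by
  simp only [pw, hermForm_sub_left, hermForm_smul_left, hp.b0, hp.ab]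
  ring

theorem decomp (a b v : Fin n → F) :
    v = Cfsg.hermForm n F q v b • a + Cfsg.hermForm n F q v a • b + pw q a b v := by
  simp only [pw]
  abel

/-- a vector orthogonal to `a`, `b` and `⟨a,b⟩^⊥` is zero -/
theorem eq_zero_of_perp (hF : Fintype.card F = q ^ 2) {a b : Fin n → F} (d : Fin n → F)
    (h1 : Cfsg.hermForm n F q d a = 0) (h2 : Cfsg.hermForm n F q d b = 0)
    (h3 : ∀ y, Cfsg.hermForm n F q d (pw q a b y) = 0) : d = 0 := by
  apply hermForm_left_eq_zero hF
  intro y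
  rw [decomp (q := q) a b y, hermForm_add_right hF, hermForm_add_right hF, hermForm_smul_right,
    hermForm_smul_right, h1, h2, h3]
  ring

/-! ### transvection subgroups -/

theorem mem_X_iff (hF : Fintype.card F = q ^ 2) {a b : Fin n → F} (hp : HP q a b)
    (g : ↥(Cfsg.SU n F q)) :
    g ∈ X q a ↔ ∃ l : F, l + l ^ q = 0 ∧
      ∀ v, mt g *ᵥ v = v + (l * Cfsg.hermForm n F q v a) • a := by
  constructor
  · intro hg
    have hga : mt g *ᵥ a = a := hg a hp.a0
    set d := mt g *ᵥ b - b with hd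
    set l := Cfsg.hermForm n F q d b with hl
    have hgb : mt g *ᵥ b = b + d := by rw [hd]; abel
    have hda : Cfsg.hermForm n F q d a = 0 := by
      have := mt_herm g b a
      rw [hga] at this
      rw [hd, hermForm_sub_left, this, sub_self]
    have hdl : d = l • a := by
      have : d - l • a = 0 := by
        apply eq_zero_of_perp hF (a := a) (b := b)
        · rw [hermForm_sub_left, hermForm_smul_left, hda, hp.a0]; ring
        · rw [hermForm_sub_left, hermForm_smul_left, hp.ab, ← hl]; ring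
        · intro y
          have h1 := mt_herm g b (pw q a b y)
          rw [hg _ (pw_a hF hp y)] at h1
          rw [hermForm_sub_left, hermForm_smul_left, herm_zero_comm hF (pw_a hF hp y), hd,
            hermForm_sub_left, h1]
          ring
      exact sub_eq_zero.1 this
    refine ⟨l, ?_, ?_⟩
    · have h1 := mt_herm g b b
      rw [hgb, hdl, hp.b0] at h1
      simp only [hermForm_add_left, hermForm_add_right hF, hermForm_smul_left, hermForm_smul_right,
        hp.a0, hp.b0, hp.ab, hp.ba hF] at h1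
      linear_combination h1
    · intro v
      have h1 : Cfsg.hermForm n F q (v - Cfsg.hermForm n F q v a • b) a = 0 := by
        rw [hermForm_sub_left, hermForm_smul_left, hp.ba hF]; ring
      have h2 := hg _ h1
      rw [mulVec_sub, mulVec_smul, hgb, hdl] at h2
      have h3 : mt g *ᵥ v = v - Cfsg.hermForm n F q v a • b +
          Cfsg.hermForm n F q v a • (b + l • a) := by
        rw [← h2]; abel
      rw [h3]
      module
  · rintro ⟨l, -, h⟩ v hv
    rw [h, hv, mul_zero, zero_smul, add_zero]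

theorem exists_X (hF : Fintype.card F = q ^ 2) {a : Fin n → F}
    (ha0 : Cfsg.hermForm n F q a a = 0) (l : F) (hl : l + l ^ q = 0) :
    ∃ g ∈ X q a, ∀ v, mt g *ᵥ v = v + (l * Cfsg.hermForm n F q v a) • a := by
  have hc : l ^ q = -l := by linear_combination hl
  refine ⟨transvSU hF a l ha0 hc, ?_, ?_⟩
  · intro v hv
    have := transvSU_mulVec hF a l ha0 hc v
    rw [hv, mul_zero, zero_smul, add_zero] at this
    exact this
  · intro v
    exact transvSU_mulVec hF a l ha0 hc v

theorem X_le_Q {a : Fin n → F} (ha0 : Cfsg.hermForm n F q a a = 0) : X q a ≤ Q q a := by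
  intro g hg
  refine ⟨hg a ha0, ?_⟩
  intro v hv
  exact ⟨0, by rw [hg v hv, zero_smul, add_zero]⟩

/-! ### the group `Q a` in the chart given by `b` -/

/-- the `a`-coordinate of `g b` -/
def kc (q : ℕ) (b : Fin n → F) (g : ↥(Cfsg.SU n F q)) : F :=
  Cfsg.hermForm n F q (mt g *ᵥ b) b

/-- the `W`-coordinate of `g b` -/
def wc (q : ℕ) (a b : Fin n → F) (g : ↥(Cfsg.SU n F q)) : Fin n → F :=
  mt g *ᵥ b - b - kc q b g • a

theorem gb_eq (a b : Fin n → F) (g : ↥(Cfsg.SU n F q)) :
    mt g *ᵥ b = b + wc q a b g + kc q b g • a := by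
  simp only [wc]; abel

theorem wc_a (hF : Fintype.card F = q ^ 2) {a b : Fin n → F} (hp : HP q a b)
    {g : ↥(Cfsg.SU n F q)} (hg : g ∈ Q q a) : Cfsg.hermForm n F q (wc q a b g) a = 0 := by
  have h1 := mt_herm g b a
  rw [hg.1] at h1
  simp only [wc, hermForm_sub_left, hermForm_smul_left, h1, hp.a0]
  ring

theorem wc_b {a b : Fin n → F} (hp : HP q a b)
    (g : ↥(Cfsg.SU n F q)) : Cfsg.hermForm n F q (wc q a b g) b = 0 := by
  simp only [wc, hermForm_sub_left, hermForm_smul_left, hp.ab, hp.b0, kc]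
  ring

theorem kc_rel (hF : Fintype.card F = q ^ 2) {a b : Fin n → F} (hp : HP q a b)
    {g : ↥(Cfsg.SU n F q)} (hg : g ∈ Q q a) :
    kc q b g + (kc q b g) ^ q + Cfsg.hermForm n F q (wc q a b g) (wc q a b g) = 0 := by
  have h1 := mt_herm g b b
  rw [gb_eq a b g, hp.b0] at h1
  have ha := wc_a hF hp hg
  have hb := wc_b hp g
  simp only [hermForm_add_left, hermForm_add_right hF, hermForm_smul_left, hermForm_smul_right,
    hp.a0, hp.b0, hp.ab, hp.ba hF, ha, hb, herm_zero_comm hF ha, herm_zero_comm hF hb] at h1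
  linear_combination h1

theorem Q_formula (hF : Fintype.card F = q ^ 2) {a b : Fin n → F} (hp : HP q a b)
    {g : ↥(Cfsg.SU n F q)} (hg : g ∈ Q q a) (x : Fin n → F) :
    mt g *ᵥ x = x + Cfsg.hermForm n F q x a • (wc q a b g + kc q b g • a) +
      (- Cfsg.hermForm n F q x (wc q a b g)) • a := by
  have ha := wc_a hF hp hg
  have hb := wc_b hp g
  obtain ⟨c, hc⟩ := hg.2 _ (pw_a hF hp x)
  have h1 := mt_herm g (pw q a b x) b
  rw [hc, gb_eq a b g, pw_b hF hp] at h1
  simp only [hermForm_add_left, hermForm_add_right hF, hermForm_smul_left, hermForm_smul_right,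
    hp.a0, hp.b0, hp.ab, hp.ba hF, pw_a hF hp, pw_b hF hp, herm_zero_comm hF ha] at h1
  have hc' : c = - Cfsg.hermForm n F q (pw q a b x) (wc q a b g) := by linear_combination h1
  have h2 : Cfsg.hermForm n F q (pw q a b x) (wc q a b g) =
      Cfsg.hermForm n F q x (wc q a b g) := by
    simp only [pw, hermForm_sub_left, hermForm_smul_left, herm_zero_comm hF ha,
      herm_zero_comm hF hb]
    ring
  conv_lhs => rw [decomp (q := q) a b x]
  rw [mulVec_add, mulVec_add, mulVec_smul, mulVec_smul, hg.1, hc, gb_eq a b g, hc', h2]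
  conv_rhs => rw [decomp (q := q) a b x]
  simp only [hermForm_add_left, hermForm_smul_left, hp.a0, hp.ba hF, pw_a hF hp,
    herm_zero_comm hF ha, herm_zero_comm hF hb, h2]
  module

theorem Q_ext (hF : Fintype.card F = q ^ 2) {a b : Fin n → F} (hp : HP q a b)
    {g g' : ↥(Cfsg.SU n F q)} (hg : g ∈ Q q a) (hg' : g' ∈ Q q a)
    (h : mt g *ᵥ b = mt g' *ᵥ b) : g = g' := by
  have hk : kc q b g = kc q b g' := by simp only [kc, h]
  have hw : wc q a b g = wc q a b g' := by simp only [wc, h, hk]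
  apply mt_injective
  rw [Matrix.ext_iff_mulVec]
  intro x
  rw [Q_formula hF hp hg, Q_formula hF hp hg', hk, hw]

theorem exists_Q (hF : Fintype.card F = q ^ 2) {a b : Fin n → F} (hp : HP q a b)
    (w : Fin n → F) (k : F) (hwa : Cfsg.hermForm n F q w a = 0)
    (hwb : Cfsg.hermForm n F q w b = 0) (hk : k + k ^ q + Cfsg.hermForm n F q w w = 0) :
    ∃ g ∈ Q q a, mt g *ᵥ b = b + w + k • a := by
  have hf : ∀ x, mt (siegSU hF a w k hp.a0 hwa hk) *ᵥ x =
      x + (Cfsg.hermForm n F q x a) • (w + k • a) + (-Cfsg.hermForm n F q x w) • a :=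
    fun x => siegMat_mulVec a w k hp.a0 x
  refine ⟨siegSU hF a w k hp.a0 hwa hk, ⟨?_, ?_⟩, ?_⟩
  · rw [hf, hp.a0, herm_zero_comm hF hwa]
    simp
  · intro v hv
    refine ⟨-Cfsg.hermForm n F q v w, ?_⟩
    rw [hf, hv]
    simp
  · rw [hf, hp.ba hF, herm_zero_comm hF hwb]
    module

theorem kc_of (hF : Fintype.card F = q ^ 2) {a b : Fin n → F} (hp : HP q a b)
    {g : ↥(Cfsg.SU n F q)} {w : Fin n → F} {k : F}
    (hwb : Cfsg.hermForm n F q w b = 0) (h : mt g *ᵥ b = b + w + k • a) : kc q b g = k := by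
  simp only [kc, h, hermForm_add_left, hermForm_smul_left, hp.b0, hwb, hp.ab]
  ring

theorem wc_of (hF : Fintype.card F = q ^ 2) {a b : Fin n → F} (hp : HP q a b)
    {g : ↥(Cfsg.SU n F q)} {w : Fin n → F} {k : F}
    (hwb : Cfsg.hermForm n F q w b = 0) (h : mt g *ᵥ b = b + w + k • a) : wc q a b g = w := by
  simp only [wc, kc_of hF hp hwb h, h]
  abel

/-! ### the centre -/

theorem center_scalar (hF : Fintype.card F = q ^ 2) (z : ↥(Cfsg.SU n F q))
    (hz : z ∈ Subgroup.center ↥(Cfsg.SU n F q)) : ∃ ζ : F, ∀ v, mt z *ᵥ v = ζ • v := by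
  classical
  rcases Nat.eq_zero_or_pos n with rfl | hn
  · exact ⟨1, fun v => Subsingleton.elim _ _⟩
  refine ⟨mt z ⟨0, hn⟩ ⟨0, hn⟩, ?_⟩
  intro v
  ext i
  rw [Matrix.mulVec, dotProduct, Finset.sum_eq_single i]
  · rw [Pi.smul_apply, smul_eq_mul]
    congr 1
    exact Cfsg.Agent.Lib.Helper50.Herm.center_diag hF n z hz i ⟨0, hn⟩
  · intro j _ hj
    have := Cfsg.Agent.Lib.Helper50.Herm.center_offdiag hF n z hz i j (Ne.symm hj)
    show mt z i j * v j = 0
    rw [show mt z i j = 0 from this, zero_mul]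
  · simp

theorem exists_scalar_of_pm_eq (hF : Fintype.card F = q ^ 2) {x y : ↥(Cfsg.SU n F q)}
    (h : pm x = pm y) : ∃ ζ : F, ∀ v, mt y *ᵥ v = ζ • (mt x *ᵥ v) := by
  rw [QuotientGroup.eq] at h
  obtain ⟨ζ, hζ⟩ := center_scalar hF _ h
  refine ⟨ζ, ?_⟩
  intro v
  have h1 := hζ v
  rw [mt_mul_mulVec] at h1
  have h2 := congrArg (fun u => mt x *ᵥ u) h1
  simp only [mt_mulVec_inv, mulVec_smul] at h2
  exact h2

end Cfsg.Agent.Lib.Helper99.AutPSU
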