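import Cfsg.Agent.Lib.Helper99.AutPSU.Geom

set_option autoImplicit false
set_option linter.unusedSectionVars false
set_option linter.unusedVariables false
set_option linter.unusedSimpArgs false

/-!
Further geometry: uniqueness of lifts, normalisers, commuting transvections, conjugation.
-/

namespace Cfsg.Agent.Lib.Helper99.AutPSU

open Matrix MatrixGroups Cfsg.Agent.Lib.Helper17

variable {F : Type*} [Field F] [Fintype F] {n q : ℕ}

theorem su_ext' {x y : ↥(Cfsg.SU n F q)} (h : ∀ v, mt x *ᵥ v = mt y *ᵥ v) : x = y := by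
  apply mt_injective
  rw [Matrix.ext_iff_mulVec]
  exact h

theorem Q_eq_of_pm_eq (hF : Fintype.card F = q ^ 2) {a : Fin n → F} (ha : a ≠ 0)
    {x y : ↥(Cfsg.SU n F q)} (hx : x ∈ Q q a) (hy : y ∈ Q q a) (h : pm x = pm y) : x = y := by
  obtain ⟨ζ, hζ⟩ := exists_scalar_of_pm_eq hF h
  have h1 := hζ a
  rw [hx.1, hy.1] at h1
  have h2 : (1 - ζ) • a = 0 := by rw [sub_smul, one_smul, ← h1, sub_self]
  have h3 : ζ = 1 := by
    rcases smul_eq_zero.1 h2 with h | h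
    · exact (sub_eq_zero.1 h).symm
    · exact absurd h ha
  apply su_ext'
  intro v
  rw [hζ v, h3, one_smul]

theorem exists_HP (hF : Fintype.card F = q ^ 2) {a : Fin n → F} (ha : Iso q a) :
    ∃ b, HP q a b := by
  obtain ⟨b, h1, h2, h3⟩ := exists_hyp_partner hF n a ha.1 ha.2
  exact ⟨b, ha.2, h3, h1⟩

theorem mem_X_iff' (hF : Fintype.card F = q ^ 2) {a : Fin n → F} (ha : Iso q a)
    (g : ↥(Cfsg.SU n F q)) :
    g ∈ X q a ↔ ∃ l : F, l + l ^ q = 0 ∧
      ∀ v, mt g *ᵥ v = v + (l * Cfsg.hermForm n F q v a) • a := by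
  obtain ⟨b, hp⟩ := exists_HP hF ha
  exact mem_X_iff hF hp g

theorem herm_inv_left (g : ↥(Cfsg.SU n F q)) (u v : Fin n → F) :
    Cfsg.hermForm n F q (mt g⁻¹ *ᵥ u) v = Cfsg.hermForm n F q u (mt g *ᵥ v) := by
  have := mt_herm g (mt g⁻¹ *ᵥ u) v
  rw [mt_mulVec_inv] at this
  exact this.symm

theorem mulVec_ne_zero (g : ↥(Cfsg.SU n F q)) {v : Fin n → F} (hv : v ≠ 0) : mt g *ᵥ v ≠ 0 := by
  intro h
  apply hv
  have := mt_inv_mulVec g v
  rw [h, mulVec_zero] at this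
  exact this.symm

theorem l_ne_zero {a : Fin n → F} {x : ↥(Cfsg.SU n F q)} {l : F} (hx1 : x ≠ 1)
    (h : ∀ v, mt x *ᵥ v = v + (l * Cfsg.hermForm n F q v a) • a) : l ≠ 0 := by
  rintro rfl
  apply hx1
  apply su_ext'
  intro v
  rw [h, zero_mul, zero_smul, add_zero, mt_one, one_mulVec]

/-- if `g` normalises the image of `X b` in `PSU` then `g` fixes the point `⟨b⟩` -/
theorem mem_P_of_conj (hF : Fintype.card F = q ^ 2) {b : Fin n → F} (hb : Iso q b)
    (g x y : ↥(Cfsg.SU n F q)) (hx : x ∈ X q b) (hx1 : x ≠ 1) (hy : y ∈ X q b)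
    (h : pm (g * x * g⁻¹) = pm y) : g ∈ P q b := by
  obtain ⟨a, hp⟩ := exists_HP hF hb
  obtain ⟨l, -, hl⟩ := (mem_X_iff hF hp x).1 hx
  obtain ⟨m, -, hm⟩ := (mem_X_iff hF hp y).1 hy
  have hl0 := l_ne_zero hx1 hl
  obtain ⟨ζ, hζ⟩ := exists_scalar_of_pm_eq hF h
  have hconj : ∀ v, mt (g * x * g⁻¹) *ᵥ v =
      v + (l * Cfsg.hermForm n F q v (mt g *ᵥ b)) • (mt g *ᵥ b) := by
    intro v
    rw [mt_mul_mulVec, mt_mul_mulVec, hl, mulVec_add, mulVec_smul, mt_mulVec_inv, herm_inv_left]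
  have hgb : mt g *ᵥ b ≠ 0 := mulVec_ne_zero g hb.1
  have key : ∃ c : F, mt g *ᵥ b = c • b := by
    by_cases hζ1 : ζ = 1
    · have h1 := hζ (mt g *ᵥ a)
      rw [hm, hconj, mt_herm, hp.ba hF, hζ1, one_smul, mul_one] at h1
      have h2 : l • (mt g *ᵥ b) = (m * Cfsg.hermForm n F q (mt g *ᵥ a) b) • b :=
        (add_left_cancel h1).symm
      refine ⟨l⁻¹ * (m * Cfsg.hermForm n F q (mt g *ᵥ a) b), ?_⟩
      rw [mul_smul, ← h2, smul_smul, inv_mul_cancel₀ hl0, one_smul]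
    · have h1 := hζ (mt g *ᵥ b)
      rw [hm, hconj, mt_herm, hb.2, mul_zero, zero_smul, add_zero] at h1
      have h2 : (ζ - 1) • (mt g *ᵥ b) = (m * Cfsg.hermForm n F q (mt g *ᵥ b) b) • b := by
        rw [sub_smul, one_smul, ← h1]; abel
      refine ⟨(ζ - 1)⁻¹ * (m * Cfsg.hermForm n F q (mt g *ᵥ b) b), ?_⟩
      rw [mul_smul, ← h2, smul_smul, inv_mul_cancel₀ (sub_ne_zero.2 hζ1), one_smul]
  obtain ⟨c, hc⟩ := key
  have hc0 : c ≠ 0 := by
    rintro rfl
    rw [zero_smul] at hc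
    exact hgb hc
  exact ⟨Units.mk0 c hc0, hc⟩

theorem comm_of_perp (hF : Fintype.card F = q ^ 2) {c d : Fin n → F} (hc : Iso q c)
    (hd : Iso q d) (hcd : Cfsg.hermForm n F q c d = 0) {x y : ↥(Cfsg.SU n F q)}
    (hx : x ∈ X q c) (hy : y ∈ X q d) : x * y = y * x := by
  obtain ⟨l, -, hl⟩ := (mem_X_iff' hF hc x).1 hx
  obtain ⟨m, -, hm⟩ := (mem_X_iff' hF hd y).1 hy
  apply su_ext'
  intro v
  rw [mt_mul_mulVec, mt_mul_mulVec, hm, hl, hl, hm]
  simp only [hermForm_add_left, hermForm_smul_left, hcd, herm_zero_comm hF hcd]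
  module

theorem perp_of_comm (hF : Fintype.card F = q ^ 2) {c d : Fin n → F} (hc : Iso q c)
    (hd : Iso q d) {x y : ↥(Cfsg.SU n F q)} (hx : x ∈ X q c) (hx1 : x ≠ 1)
    (hy : y ∈ X q d) (hy1 : y ≠ 1) (h : pm (x * y) = pm (y * x)) :
    Cfsg.hermForm n F q c d = 0 := by
  obtain ⟨l, -, hl⟩ := (mem_X_iff' hF hc x).1 hx
  obtain ⟨m, -, hm⟩ := (mem_X_iff' hF hd y).1 hy
  have hl0 := l_ne_zero hx1 hl
  have hm0 := l_ne_zero hy1 hm
  obtain ⟨ζ, hζ⟩ := exists_scalar_of_pm_eq hF h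
  by_contra hη
  set η := Cfsg.hermForm n F q c d with hηdef
  have hη' : Cfsg.hermForm n F q d c = η ^ q := by rw [hηdef, hermForm_conj hF]
  have h1 := hζ c
  rw [mt_mul_mulVec, mt_mul_mulVec, hl, hm, hm, hl] at h1
  simp only [hermForm_add_left, hermForm_smul_left, hc.2, hd.2, ← hηdef, hη', mul_zero, zero_smul,
    add_zero] at h1
  have e1 := congrArg (fun u => Cfsg.hermForm n F q u c) h1
  have e2 := congrArg (fun u => Cfsg.hermForm n F q u d) h1
  simp only [hermForm_add_left, hermForm_smul_left, hc.2, hd.2, ← hηdef, hη'] at e1 e2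
  have hηq : η ^ q ≠ 0 := pow_ne_zero _ hη
  have hζ1 : ζ = 1 := by
    have : (m * η * η ^ q) * (1 - ζ) = 0 := by linear_combination e1
    rcases mul_eq_zero.1 this with h | h
    · exact absurd h (mul_ne_zero (mul_ne_zero hm0 hη) hηq)
    · exact (sub_eq_zero.1 h).symm
  rw [hζ1] at e2
  have : l * m * η * η ^ q * η = 0 := by linear_combination -e2
  exact absurd this (mul_ne_zero (mul_ne_zero (mul_ne_zero (mul_ne_zero hl0 hm0) hη) hηq) hη)

/-! ### conjugation by `GU` -/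

theorem gu_inv_mulVec' (g : ↥(Cfsg.GU n F q)) (v : Fin n → F) :
    (g : GL (Fin n) F)⁻¹.1 *ᵥ ((g : GL (Fin n) F).1 *ᵥ v) = v := by
  rw [mulVec_mulVec, Units.inv_mul, one_mulVec]

theorem gu_mulVec_inv' (g : ↥(Cfsg.GU n F q)) (v : Fin n → F) :
    (g : GL (Fin n) F).1 *ᵥ ((g : GL (Fin n) F)⁻¹.1 *ᵥ v) = v := by
  rw [mulVec_mulVec, Units.mul_inv, one_mulVec]

theorem gu_herm_inv_left (g : ↥(Cfsg.GU n F q)) (u v : Fin n → F) :
    Cfsg.hermForm n F q ((g : GL (Fin n) F)⁻¹.1 *ᵥ u) v =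
      Cfsg.hermForm n F q u ((g : GL (Fin n) F).1 *ᵥ v) := by
  have := gu_herm g ((g : GL (Fin n) F)⁻¹.1 *ᵥ u) v
  rw [gu_mulVec_inv'] at this
  exact this.symm

theorem conjS_mulVec (g : ↥(Cfsg.GU n F q)) (x : ↥(Cfsg.SU n F q)) (v : Fin n → F) :
    mt (conjS g x) *ᵥ v =
      (g : GL (Fin n) F).1 *ᵥ (mt x *ᵥ ((g : GL (Fin n) F)⁻¹.1 *ᵥ v)) := by
  rw [conjS_val, ← mulVec_mulVec, ← mulVec_mulVec]

theorem conjS_mem_X (g : ↥(Cfsg.GU n F q)) {a : Fin n → F} {x : ↥(Cfsg.SU n F q)}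
    (hx : x ∈ X q a) : conjS g x ∈ X q ((g : GL (Fin n) F).1 *ᵥ a) := by
  intro v hv
  rw [conjS_mulVec, hx _ (by rw [gu_herm_inv_left]; exact hv), gu_mulVec_inv']

theorem conjS_mem_Q (g : ↥(Cfsg.GU n F q)) {a : Fin n → F} {x : ↥(Cfsg.SU n F q)}
    (hx : x ∈ Q q a) : conjS g x ∈ Q q ((g : GL (Fin n) F).1 *ᵥ a) := by
  refine ⟨by rw [conjS_mulVec, gu_inv_mulVec', hx.1], ?_⟩
  intro v hv
  obtain ⟨c, hc⟩ := hx.2 _ (by rw [gu_herm_inv_left]; exact hv)
  refine ⟨c, ?_⟩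
  rw [conjS_mulVec, hc, mulVec_add, mulVec_smul, gu_mulVec_inv']

theorem X_smul {a : Fin n → F} {μ : F} (hμ : μ ≠ 0) : X q (μ • a) = X q a := by
  have hz : ∀ v, Cfsg.hermForm n F q v (μ • a) = 0 ↔ Cfsg.hermForm n F q v a = 0 := by
    intro v
    rw [hermForm_smul_right, mul_eq_zero]
    constructor
    · rintro (h | h)
      · exact absurd (pow_eq_zero_iff (by rintro rfl; simp at h) |>.1 h) hμ
      · exact h
    · exact Or.inr
  ext g
  simp only [mem_X, hz]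

theorem Q_smul {a : Fin n → F} {μ : F} (hμ : μ ≠ 0) : Q q (μ • a) = Q q a := by
  have hz : ∀ v, Cfsg.hermForm n F q v (μ • a) = 0 ↔ Cfsg.hermForm n F q v a = 0 := by
    intro v
    rw [hermForm_smul_right, mul_eq_zero]
    constructor
    · rintro (h | h)
      · exact absurd (pow_eq_zero_iff (by rintro rfl; simp at h) |>.1 h) hμ
      · exact h
    · exact Or.inr
  ext g
  simp only [mem_Q, hz, mulVec_smul]
  constructor
  · rintro ⟨h1, h2⟩
    refine ⟨smul_right_injective _ hμ h1, ?_⟩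
    intro v hv
    obtain ⟨c, hc⟩ := h2 v hv
    exact ⟨c * μ, by rw [hc, smul_smul]⟩
  · rintro ⟨h1, h2⟩
    refine ⟨by rw [h1], ?_⟩
    intro v hv
    obtain ⟨c, hc⟩ := h2 v hv
    exact ⟨c * μ⁻¹, by rw [hc, smul_smul, mul_assoc, inv_mul_cancel₀ hμ, mul_one]⟩

/-- a non-trivial element of `X a` -/
theorem exists_X_ne_one (hF : Fintype.card F = q ^ 2) {a : Fin n → F} (ha : Iso q a) :
    ∃ x ∈ X q a, x ≠ 1 := by
  obtain ⟨b, hp⟩ := exists_HP hF ha
  obtain ⟨l, hl0, hl⟩ := exists_trace_zero hF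
  obtain ⟨x, hx, hf⟩ := exists_X hF ha.2 l (by rw [hl]; ring)
  refine ⟨x, hx, ?_⟩
  rintro rfl
  have h1 := hf b
  rw [mt_one, one_mulVec, hp.ba hF, mul_one] at h1
  have h2 : l • a = 0 := by
    have := h1.symm
    rwa [add_eq_left] at this
  rcases smul_eq_zero.1 h2 with h | h
  · exact hl0 h
  · exact ha.1 h

/-! ### the space `W = ⟨a,b⟩^⊥` -/

theorem W_nondeg (hF : Fintype.card F = q ^ 2) {a b : Fin n → F} (hp : HP q a b)
    {w : Fin n → F} (hwa : Cfsg.hermForm n F q w a = 0) (hwb : Cfsg.hermForm n F q w b = 0)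
    (hw : w ≠ 0) : ∃ e, Cfsg.hermForm n F q e a = 0 ∧ Cfsg.hermForm n F q e b = 0 ∧
      Cfsg.hermForm n F q w e = 1 := by
  have : ∃ y, Cfsg.hermForm n F q w (pw q a b y) ≠ 0 := by
    by_contra hcon
    push Not at hcon
    exact hw (eq_zero_of_perp hF w hwa hwb hcon)
  obtain ⟨y, hy⟩ := this
  refine ⟨(((Cfsg.hermForm n F q w (pw q a b y))⁻¹) ^ q) • pw q a b y, ?_, ?_, ?_⟩
  · rw [hermForm_smul_left, pw_a hF hp, mul_zero]
  · rw [hermForm_smul_left, pw_b hF hp, mul_zero]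
  · rw [hermForm_smul_right, pow_q_pow_q hF, inv_mul_cancel₀ hy]

theorem W_dec (hF : Fintype.card F = q ^ 2) {a b : Fin n → F} (hp : HP q a b)
    {w : Fin n → F} (hwa : Cfsg.hermForm n F q w a = 0) (hwb : Cfsg.hermForm n F q w b = 0)
    (hw : w ≠ 0) (hw0 : Cfsg.hermForm n F q w w = 0) :
    ∃ w₁, Cfsg.hermForm n F q w₁ a = 0 ∧ Cfsg.hermForm n F q w₁ b = 0 ∧
      Cfsg.hermForm n F q w₁ w₁ ≠ 0 ∧ Cfsg.hermForm n F q (w - w₁) (w - w₁) ≠ 0 := by
  obtain ⟨e, hea, heb, hwe⟩ := W_nondeg hF hp hwa hwb hw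
  have hew : Cfsg.hermForm n F q e w = 1 := by rw [← hermForm_conj hF, hwe, one_pow]
  obtain ⟨x, hx⟩ := exists_trace_eq hF (1 - Cfsg.hermForm n F q e e) (by
    rw [sub_pow_q hF, one_pow, hermForm_conj hF])
  refine ⟨x • w + e, ?_, ?_, ?_, ?_⟩
  · rw [hermForm_add_left, hermForm_smul_left, hwa, hea]; ring
  · rw [hermForm_add_left, hermForm_smul_left, hwb, heb]; ring
  · simp only [hermForm_add_left, hermForm_add_right hF, hermForm_smul_left, hermForm_smul_right,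
      hw0, hwe, hew]
    intro h
    have : (1 : F) = 0 := by linear_combination h - hx
    exact one_ne_zero this
  · simp only [hermForm_add_left, hermForm_add_right hF, hermForm_smul_left, hermForm_smul_right,
      hermForm_sub_left, hermForm_sub_right hF, hw0, hwe, hew]
    intro h
    have : (1 : F) = 0 := by linear_combination hx - h
    exact one_ne_zero this

theorem W_ne (hF : Fintype.card F = q ^ 2) (hn : 3 ≤ n) {a b : Fin n → F} (hp : HP q a b) :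
    ∃ w, Cfsg.hermForm n F q w a = 0 ∧ Cfsg.hermForm n F q w b = 0 ∧
      Cfsg.hermForm n F q w w ≠ 0 := by
  let f : (Fin n → F) →ₗ[F] (Fin 2 → F) :=
    { toFun := fun v => ![Cfsg.hermForm n F q v a, Cfsg.hermForm n F q v b]
      map_add' := by
        intro u v
        ext i
        fin_cases i <;> simp [hermForm_add_left]
      map_smul' := by
        intro c v
        ext i
        fin_cases i <;> simp [hermForm_smul_left] }
  have hker : LinearMap.ker f ≠ ⊥ := by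
    apply LinearMap.ker_ne_bot_of_finrank_lt
    simp only [Module.finrank_fintype_fun_eq_card, Fintype.card_fin]
    omega
  obtain ⟨w, hw, hw0⟩ := (Submodule.ne_bot_iff _).1 hker
  have hfw : f w = 0 := hw
  have hwa : Cfsg.hermForm n F q w a = 0 := congrFun hfw 0
  have hwb : Cfsg.hermForm n F q w b = 0 := congrFun hfw 1
  by_cases h0 : Cfsg.hermForm n F q w w = 0
  · obtain ⟨w₁, h1, h2, h3, -⟩ := W_dec hF hp hwa hwb hw0 h0
    exact ⟨w₁, h1, h2, h3⟩
  · exact ⟨w, hwa, hwb, h0⟩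

end Cfsg.Agent.Lib.Helper99.AutPSU
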