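import Cfsg.Agent.Lib.Helper99.AutPSU.Geom2

set_option autoImplicit false
set_option linter.unusedSectionVars false
set_option linter.unusedVariables false
set_option linter.unusedSimpArgs false

/-!
Normalisation of an automorphism of `PSU` on a hyperbolic pair.
-/

namespace Cfsg.Agent.Lib.Helper99.AutPSU

open Matrix MatrixGroups Cfsg.Agent.Lib.Helper17

variable {F : Type*} [Field F] [Fintype F] {n q : ℕ}

/-- `β` is normalised on the hyperbolic pair `(a,b)` -/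
structure Nrm (β : MulAut (Cfsg.PSU n F q)) (a b : Fin n → F) : Prop where
  hp : HP q a b
  Qa : ∀ x ∈ Q q a, ∃ y ∈ Q q a, β (pm x) = pm y
  Xa : ∀ x ∈ X q a, ∃ y ∈ X q a, β (pm x) = pm y
  Xb : ∀ x ∈ X q b, ∃ y ∈ X q b, β (pm x) = pm y
  Xb' : ∀ y ∈ X q b, ∃ x ∈ X q b, β (pm x) = pm y

theorem HP.linInd {a b : Fin n → F} (hF : Fintype.card F = q ^ 2) (hp : HP q a b) :
    LinearIndependent F ![a, b] := by
  rw [LinearIndependent.pair_iff]
  intro s t hst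
  have h1 := congrArg (fun x => Cfsg.hermForm n F q x b) hst
  have h2 := congrArg (fun x => Cfsg.hermForm n F q x a) hst
  simp only [hermForm_add_left, hermForm_smul_left, hp.a0, hp.b0, hp.ab, hp.ba hF,
    herm_zero_left] at h1 h2
  exact ⟨by linear_combination h1, by linear_combination h2⟩

theorem exists_gu_map (hF : Fintype.card F = q ^ 2) {a b a' b' : Fin n → F} (hp : HP q a b)
    (hp' : HP q a' b') : ∃ g : ↥(Cfsg.GU n F q),
      (g : GL (Fin n) F).1 *ᵥ a = a' ∧ (g : GL (Fin n) F).1 *ᵥ b = b' := by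
  obtain ⟨g, hg⟩ := gu_witt_frame hF n ![a, b] ![a', b'] (hp.linInd hF) (hp'.linInd hF) (by
    intro i j
    fin_cases i <;> fin_cases j <;>
      simp [hp.a0, hp.b0, hp.ab, hp.ba hF, hp'.a0, hp'.b0, hp'.ab, hp'.ba hF])
  exact ⟨g, hg 0, hg 1⟩

instance : Finite ↥(Cfsg.SU n F q) := by
  have : Finite (Matrix.SpecialLinearGroup (Fin n) F) := Subtype.finite
  exact Subtype.finite

theorem surj_of_maps (hF : Fintype.card F = q ^ 2) (β : MulAut (Cfsg.PSU n F q)) {b : Fin n → F}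
    (hb : Iso q b) (h : ∀ x ∈ X q b, ∃ y ∈ X q b, β (pm x) = pm y) :
    ∀ y ∈ X q b, ∃ x ∈ X q b, β (pm x) = pm y := by
  have h' : ∀ x : ↥(X q b), ∃ y : ↥(X q b), β (pm x.1) = pm y.1 := by
    intro x
    obtain ⟨y, hy, e⟩ := h x.1 x.2
    exact ⟨⟨y, hy⟩, e⟩
  choose f hf using h'
  have hinj : Function.Injective f := by
    intro x x' e
    have h1 : β (pm x.1) = β (pm x'.1) := by rw [hf, hf, e]
    have h2 := β.injective h1
    exact Subtype.ext (Q_eq_of_pm_eq hF hb.1 (X_le_Q hb.2 x.2) (X_le_Q hb.2 x'.2) h2)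
  have hsurj := Finite.injective_iff_surjective.1 hinj
  intro y hy
  obtain ⟨x, hx⟩ := hsurj ⟨y, hy⟩
  refine ⟨x.1, x.2, ?_⟩
  rw [hf, hx]

theorem cG_inv_pm (g : ↥(Cfsg.GU n F q)) (y : ↥(Cfsg.SU n F q)) :
    (cG g)⁻¹ (pm y) = pm (conjS g⁻¹ y) := by
  rw [← map_inv, cG_pm]

theorem normalize (hF : Fintype.card F = q ^ 2) (hPerm : PermStmt n F q)
    (β : MulAut (Cfsg.PSU n F q)) {a b : Fin n → F} (hp : HP q a b) :
    ∃ g : ↥(Cfsg.GU n F q), Nrm ((cG g)⁻¹ * β) a b := by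
  obtain ⟨a', ha', hXa, hQa⟩ := hPerm β a hp.isoA
  obtain ⟨b', hb', hXb, hQb⟩ := hPerm β b (hp.isoB hF)
  have hη : Cfsg.hermForm n F q a' b' ≠ 0 := by
    intro hη
    obtain ⟨x, hx, hx1⟩ := exists_X_ne_one hF hp.isoA
    obtain ⟨y, hy, hy1⟩ := exists_X_ne_one hF (hp.isoB hF)
    obtain ⟨x', hx', ex⟩ := hXa x hx
    obtain ⟨y', hy', ey⟩ := hXb y hy
    have h1 : β (pm (x * y)) = β (pm (y * x)) := by
      rw [pm_mul, pm_mul, map_mul, map_mul, ex, ey, ← pm_mul, ← pm_mul,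
        comm_of_perp hF ha' hb' hη hx' hy']
    have h2 := perp_of_comm hF hp.isoA (hp.isoB hF) hx hx1 hy hy1 (β.injective h1)
    rw [hp.ab] at h2
    exact one_ne_zero h2
  set μ : F := ((Cfsg.hermForm n F q a' b')⁻¹) ^ q with hμ
  have hμ0 : μ ≠ 0 := pow_ne_zero _ (inv_ne_zero hη)
  have hp' : HP q a' (μ • b') := by
    refine ⟨ha'.2, ?_, ?_⟩
    · rw [hermForm_smul_left, hermForm_smul_right, hb'.2]; ring
    · rw [hermForm_smul_right, hμ, pow_q_pow_q hF, inv_mul_cancel₀ hη]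
  obtain ⟨g, hga, hgb⟩ := exists_gu_map hF hp hp'
  have hga' : ((g⁻¹ : ↥(Cfsg.GU n F q)) : GL (Fin n) F).1 *ᵥ a' = a := by
    rw [← hga]; exact gu_inv_mulVec' g a
  have hgb' : ((g⁻¹ : ↥(Cfsg.GU n F q)) : GL (Fin n) F).1 *ᵥ (μ • b') = b := by
    rw [← hgb]; exact gu_inv_mulVec' g b
  have hXb1 : ∀ x ∈ X q b, ∃ y ∈ X q b, ((cG g)⁻¹ * β) (pm x) = pm y := by
    intro x hx
    obtain ⟨y, hy, e⟩ := hXb x hx
    refine ⟨conjS g⁻¹ y, ?_, ?_⟩
    · rw [← X_smul hμ0] at hy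
      have := conjS_mem_X g⁻¹ hy
      rwa [hgb'] at this
    · rw [MulAut.mul_apply, e, cG_inv_pm]
  refine ⟨g, hp, ?_, ?_, hXb1, surj_of_maps hF _ (hp.isoB hF) hXb1⟩
  · intro x hx
    obtain ⟨y, hy, e⟩ := hQa x hx
    refine ⟨conjS g⁻¹ y, ?_, ?_⟩
    · have := conjS_mem_Q g⁻¹ hy
      rwa [hga'] at this
    · rw [MulAut.mul_apply, e, cG_inv_pm]
  · intro x hx
    obtain ⟨y, hy, e⟩ := hXa x hx
    refine ⟨conjS g⁻¹ y, ?_, ?_⟩
    · have := conjS_mem_X g⁻¹ hy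
      rwa [hga'] at this
    · rw [MulAut.mul_apply, e, cG_inv_pm]

end Cfsg.Agent.Lib.Helper99.AutPSU
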