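import Cfsg.Agent.Lib.Helper99.AutPSU.TDefs

set_option autoImplicit false
set_option linter.unusedSectionVars false
set_option linter.unusedVariables false
set_option linter.unusedSimpArgs false

/-!
The easy hypotheses of the algebraic rung for the coordinate maps `T1`, `T2`.
-/

namespace Cfsg.Agent.Lib.Helper99.AutPSU

open Matrix MatrixGroups Cfsg.Agent.Lib.Helper17
open Classical

variable {F : Type*} [Field F] [Fintype F] {n q : ℕ} {a b : Fin n → F}

theorem hW_add (u v w : ↥(Wsub q a b)) : hW (u + v) w = hW u w + hW v w := by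
  simp only [hW, Submodule.coe_add, hermForm_add_left]

theorem hW_smul (c : F) (u w : ↥(Wsub q a b)) : hW (c • u) w = c * hW u w := by
  simp only [hW, Submodule.coe_smul, hermForm_smul_left]

theorem hW_conj (hF : Fintype.card F = q ^ 2) (u w : ↥(Wsub q a b)) : (hW u w) ^ q = hW w u := by
  simp only [hW, hermForm_conj hF]

theorem inH_W (w : ↥(Wsub q a b)) {k : F} (hk : k + k ^ q + hW w w = 0) :
    InH q a b (w : Fin n → F) k := ⟨w.2.1, w.2.2, hk⟩

variable {β : MulAut (Cfsg.PSU n F q)}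

theorem t_mem (hF : Fintype.card F = q ^ 2) (hp : HP q a b) (w : ↥(Wsub q a b)) (k : F) :
    T2 hF hp β w k + (T2 hF hp β w k) ^ q + hW (T1 hF hp β w k) (T1 hF hp β w k) = 0 :=
  kc_rel hF hp (lq_mem β a _)

theorem t_mul (hF : Fintype.card F = q ^ 2) (hN : Nrm β a b) (w : ↥(Wsub q a b)) (k : F)
    (w' : ↥(Wsub q a b)) (k' : F) (hk : k + k ^ q + hW w w = 0)
    (hk' : k' + k' ^ q + hW w' w' = 0) :
    T1 hF hN.hp β (w + w') (k + k' - hW w' w) = T1 hF hN.hp β w k + T1 hF hN.hp β w' k' ∧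
    T2 hF hN.hp β (w + w') (k + k' - hW w' w) =
      T2 hF hN.hp β w k + T2 hF hN.hp β w' k' - hW (T1 hF hN.hp β w' k') (T1 hF hN.hp β w k) := by
  have e := el_mul hF hN.hp (inH_W w hk) (inH_W w' hk')
  have e2 : lq β a (el hF hN.hp ((w : Fin n → F) + w') (k + k' - hW w' w)) =
      lq β a (el hF hN.hp w k) * lq β a (el hF hN.hp w' k') := by
    rw [← lq_mul hF hN (el_mem hF hN.hp _ _) (el_mem hF hN.hp _ _), ← e]
    rfl
  constructor
  · apply Subtype.ext
    simp only [T1, Submodule.coe_add]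
    rw [e2, wc_mul hF hN.hp (lq_mem β a _) (lq_mem β a _)]
  · simp only [T2, T1, Submodule.coe_add]
    rw [e2, kc_mul hF hN.hp (lq_mem β a _) (lq_mem β a _)]
    rfl

theorem t_inj (hF : Fintype.card F = q ^ 2) (hN : Nrm β a b) (w : ↥(Wsub q a b)) (k : F)
    (w' : ↥(Wsub q a b)) (k' : F) (hk : k + k ^ q + hW w w = 0)
    (hk' : k' + k' ^ q + hW w' w' = 0)
    (h1 : T1 hF hN.hp β w k = T1 hF hN.hp β w' k') (h2 : T2 hF hN.hp β w k = T2 hF hN.hp β w' k') :
    w = w' ∧ k = k' := by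
  have h1' : wc q a b (lq β a (el hF hN.hp w k)) = wc q a b (lq β a (el hF hN.hp w' k')) :=
    congrArg Subtype.val h1
  have h2' : kc q b (lq β a (el hF hN.hp w k)) = kc q b (lq β a (el hF hN.hp w' k')) := h2
  have e : lq β a (el hF hN.hp w k) = lq β a (el hF hN.hp w' k') := by
    apply Q_ext hF hN.hp (lq_mem β a _) (lq_mem β a _)
    rw [gb_eq a b, gb_eq a b (lq β a (el hF hN.hp w' k')), h1', h2']
  have e2 := lq_inj hF hN (el_mem hF hN.hp _ _) (el_mem hF hN.hp _ _) e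
  constructor
  · apply Subtype.ext
    rw [← wc_el hF hN.hp (inH_W w hk), e2, wc_el hF hN.hp (inH_W w' hk')]
  · rw [← kc_el hF hN.hp (inH_W w hk), e2, kc_el hF hN.hp (inH_W w' hk')]

theorem t_X (hF : Fintype.card F = q ^ 2) (hN : Nrm β a b) (l : F) (hl : l + l ^ q = 0) :
    T1 hF hN.hp β 0 l = 0 := by
  apply Subtype.ext
  simp only [T1, Submodule.coe_zero]
  exact wc_of_mem_X hF hN.hp (lq_mem_X hF hN (el_zero_mem_X hF hN.hp hl))

theorem t_dec (hF : Fintype.card F = q ^ 2) (hp : HP q a b) (w : ↥(Wsub q a b))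
    (hw0 : hW w w = 0) (hw : w ≠ 0) : ∃ w₁ : ↥(Wsub q a b), hW w₁ w₁ ≠ 0 ∧
      hW (w - w₁) (w - w₁) ≠ 0 := by
  obtain ⟨w₁, h1, h2, h3, h4⟩ := W_dec hF hp w.2.1 w.2.2
    (fun h => hw (Subtype.ext h)) hw0
  exact ⟨⟨w₁, h1, h2⟩, h3, h4⟩

theorem t_ne (hF : Fintype.card F = q ^ 2) (hn : 3 ≤ n) (hp : HP q a b) :
    ∃ w₀ : ↥(Wsub q a b), hW w₀ w₀ ≠ 0 := by
  obtain ⟨w, h1, h2, h3⟩ := W_ne hF hn hp
  exact ⟨⟨w, h1, h2⟩, h3⟩

/-- the image of a transvection in `X b`, explicitly -/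
theorem lb_tv_mulVec (hF : Fintype.card F = q ^ 2) (hp : HP q a b) (l : F) (v : Fin n → F) :
    mt (lb β b (tv hF hp.b0 l)) *ᵥ v = v + (tb hF hp β l * Cfsg.hermForm n F q v b) • b := by
  obtain ⟨m, -, hm⟩ := (mem_X_iff hF (hp.symm hF) _).1 (lb_mem β b (tv hF hp.b0 l))
  have : tb hF hp β l = m := by
    simp only [tb, hm, hermForm_add_left, hermForm_smul_left, hp.a0, hp.ab, hp.ba hF]
    ring
  rw [this, hm]

end Cfsg.Agent.Lib.Helper99.AutPSU
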