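import Cfsg.Agent.Lib.Helper99.AutPSU.Theta

set_option autoImplicit false
set_option linter.unusedSectionVars false
set_option linter.unusedVariables false
set_option linter.unusedSimpArgs false

/-!
The coordinate maps `T1`, `T2`, `tb` of a normalised automorphism.
-/

namespace Cfsg.Agent.Lib.Helper99.AutPSU

open Matrix MatrixGroups Cfsg.Agent.Lib.Helper17
open Classical

variable {F : Type*} [Field F] [Fintype F] {n q : ℕ}

/-- `⟨a,b⟩^⊥` -/
def Wsub (q : ℕ) (a b : Fin n → F) : Submodule F (Fin n → F) where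
  carrier := {w | Cfsg.hermForm n F q w a = 0 ∧ Cfsg.hermForm n F q w b = 0}
  add_mem' {u v} hu hv := by
    refine ⟨?_, ?_⟩
    · rw [hermForm_add_left, hu.1, hv.1, add_zero]
    · rw [hermForm_add_left, hu.2, hv.2, add_zero]
  zero_mem' := ⟨herm_zero_left a, herm_zero_left b⟩
  smul_mem' c u hu := by
    refine ⟨?_, ?_⟩
    · rw [hermForm_smul_left, hu.1, mul_zero]
    · rw [hermForm_smul_left, hu.2, mul_zero]

theorem mem_Wsub {a b w : Fin n → F} :
    w ∈ Wsub q a b ↔ Cfsg.hermForm n F q w a = 0 ∧ Cfsg.hermForm n F q w b = 0 := Iff.rfl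

/-- the form on `W` -/
def hW {a b : Fin n → F} (u w : ↥(Wsub q a b)) : F :=
  Cfsg.hermForm n F q (u : Fin n → F) (w : Fin n → F)

/-- the `W`-coordinate of the image of `el w k` -/
noncomputable def T1 (hF : Fintype.card F = q ^ 2) {a b : Fin n → F} (hp : HP q a b)
    (β : MulAut (Cfsg.PSU n F q)) (w : ↥(Wsub q a b)) (k : F) : ↥(Wsub q a b) :=
  ⟨wc q a b (lq β a (el hF hp (w : Fin n → F) k)), wc_a hF hp (lq_mem β a _), wc_b hp _⟩

/-- the `a`-coordinate of the image of `el w k` -/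
noncomputable def T2 (hF : Fintype.card F = q ^ 2) {a b : Fin n → F} (hp : HP q a b)
    (β : MulAut (Cfsg.PSU n F q)) (w : ↥(Wsub q a b)) (k : F) : F :=
  kc q b (lq β a (el hF hp (w : Fin n → F) k))

/-- the transvection `v ↦ v + l h(v,b) b` -/
noncomputable def tv (hF : Fintype.card F = q ^ 2) {b : Fin n → F}
    (hb0 : Cfsg.hermForm n F q b b = 0) (l : F) : ↥(Cfsg.SU n F q) :=
  if h : l + l ^ q = 0 then (exists_X hF hb0 l h).choose else 1

theorem tv_mem (hF : Fintype.card F = q ^ 2) {b : Fin n → F}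
    (hb0 : Cfsg.hermForm n F q b b = 0) (l : F) : tv hF hb0 l ∈ X q b := by
  unfold tv
  split_ifs with h
  · exact (exists_X hF hb0 l h).choose_spec.1
  · exact Subgroup.one_mem _

theorem tv_mulVec (hF : Fintype.card F = q ^ 2) {b : Fin n → F}
    (hb0 : Cfsg.hermForm n F q b b = 0) {l : F} (hl : l + l ^ q = 0) (v : Fin n → F) :
    mt (tv hF hb0 l) *ᵥ v = v + (l * Cfsg.hermForm n F q v b) • b := by
  unfold tv
  rw [dif_pos hl]
  exact (exists_X hF hb0 l hl).choose_spec.2 v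

/-- the lift of `β` on `X b` -/
noncomputable def lb (β : MulAut (Cfsg.PSU n F q)) (b : Fin n → F) (x : ↥(Cfsg.SU n F q)) :
    ↥(Cfsg.SU n F q) :=
  if h : ∃ y ∈ X q b, β (pm x) = pm y then h.choose else 1

theorem lb_mem (β : MulAut (Cfsg.PSU n F q)) (b : Fin n → F) (x : ↥(Cfsg.SU n F q)) :
    lb β b x ∈ X q b := by
  unfold lb
  split_ifs with h
  · exact h.choose_spec.1
  · exact Subgroup.one_mem _

theorem lb_spec {β : MulAut (Cfsg.PSU n F q)} {a b : Fin n → F} (hN : Nrm β a b)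
    {x : ↥(Cfsg.SU n F q)} (hx : x ∈ X q b) : β (pm x) = pm (lb β b x) := by
  unfold lb
  rw [dif_pos (hN.Xb x hx)]
  exact (hN.Xb x hx).choose_spec.2

/-- the parameter of the image of the transvection `tv l` -/
noncomputable def tb (hF : Fintype.card F = q ^ 2) {a b : Fin n → F} (hp : HP q a b)
    (β : MulAut (Cfsg.PSU n F q)) (l : F) : F :=
  Cfsg.hermForm n F q (mt (lb β b (tv hF hp.b0 l)) *ᵥ a) a

/-- the conclusion of the algebraic rung, for the coordinate maps of `β` -/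
def AlgConcl (hF : Fintype.card F = q ^ 2) {a b : Fin n → F} (hp : HP q a b)
    (β : MulAut (Cfsg.PSU n F q)) (σ : F ≃+* F) (c : F) : Prop :=
  c ≠ 0 ∧ c ^ q = c ∧
    (∀ (w : ↥(Wsub q a b)) k, k + k ^ q + hW w w = 0 → T2 hF hp β w k = c * σ k) ∧
    (∀ (x : F) (w : ↥(Wsub q a b)) k k', k + k ^ q + hW w w = 0 →
        k' + k' ^ q + hW (x • w) (x • w) = 0 → T1 hF hp β (x • w) k' = σ x • T1 hF hp β w k) ∧
    (∀ (w : ↥(Wsub q a b)) k (w' : ↥(Wsub q a b)) k', k + k ^ q + hW w w = 0 →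
        k' + k' ^ q + hW w' w' = 0 →
        hW (T1 hF hp β w k) (T1 hF hp β w' k') = c * σ (hW w w')) ∧
    (∀ l : F, l + l ^ q = 0 → tb hF hp β l = c⁻¹ * σ l)

end Cfsg.Agent.Lib.Helper99.AutPSU
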