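import Cfsg.Agent.Lib.Helper99.AutPSU.TBasic
import Cfsg.Agent.Lib.Helper50.AutPSUGeom

set_option autoImplicit false
set_option linter.unusedSectionVars false
set_option linter.unusedVariables false
set_option linter.unusedSimpArgs false

/-!
RUNG ISO: isotropic lines of `W` are mapped to lines.
-/

namespace Cfsg.Agent.Lib.Helper99.AutPSU

open Matrix MatrixGroups Cfsg.Agent.Lib.Helper17
open Classical

variable {F : Type*} [Field F] [Fintype F] {n q : ℕ}

theorem image_ne_one (hF : Fintype.card F = q ^ 2) (β : MulAut (Cfsg.PSU n F q))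
    {c : Fin n → F} (hc : Iso q c) {x y : ↥(Cfsg.SU n F q)} (hx : x ∈ X q c) (hx1 : x ≠ 1)
    (e : β (pm x) = pm y) : y ≠ 1 := by
  rintro rfl
  apply hx1
  apply Q_eq_of_pm_eq hF hc.1 (X_le_Q hc.2 hx) (Subgroup.one_mem _)
  apply β.injective
  rw [e, pm_one, map_one]

theorem perp_transfer (hF : Fintype.card F = q ^ 2) (β : MulAut (Cfsg.PSU n F q))
    {c d c' d' : Fin n → F} (hc : Iso q c) (hd : Iso q d) (hc' : Iso q c') (hd' : Iso q d')
    (hcd : Cfsg.hermForm n F q c d = 0)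
    (h1 : ∀ x ∈ X q c, ∃ y ∈ X q c', β (pm x) = pm y)
    (h2 : ∀ x ∈ X q d, ∃ y ∈ X q d', β (pm x) = pm y) : Cfsg.hermForm n F q c' d' = 0 := by
  obtain ⟨t, ht, ht1⟩ := exists_X_ne_one hF hc
  obtain ⟨s, hs, hs1⟩ := exists_X_ne_one hF hd
  obtain ⟨t', ht', et⟩ := h1 t ht
  obtain ⟨s', hs', es⟩ := h2 s hs
  apply perp_of_comm hF hc' hd' ht' (image_ne_one hF β hc ht ht1 et) hs'
    (image_ne_one hF β hd hs hs1 es)
  rw [pm_mul, pm_mul, ← et, ← es, ← map_mul, ← map_mul, ← pm_mul, ← pm_mul,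
    comm_of_perp hF hc hd hcd ht hs]

variable {β : MulAut (Cfsg.PSU n F q)} {a b : Fin n → F}

theorem T1_indep (hF : Fintype.card F = q ^ 2) (hN : Nrm β a b) (w : ↥(Wsub q a b)) (k k' : F)
    (hk : k + k ^ q + hW w w = 0) (hk' : k' + k' ^ q + hW w w = 0) :
    T1 hF hN.hp β w k' = T1 hF hN.hp β w k := by
  have hl : (k' - k) + (k' - k) ^ q = 0 := by
    rw [sub_pow_q hF]
    linear_combination hk' - hk
  have h0 : (k' - k) + (k' - k) ^ q + hW (0 : ↥(Wsub q a b)) 0 = 0 := by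
    rw [hl, zero_add]
    exact herm_zero_left _
  have h := (t_mul hF hN w k 0 (k' - k) hk h0).1
  have h00 : hW (0 : ↥(Wsub q a b)) w = 0 := herm_zero_left _
  rw [t_X hF hN _ hl, add_zero, add_zero, h00, sub_zero] at h
  rw [← h]
  congr 1
  ring

/-- conjugating an element of `Q a` by a transvection with centre in `W` -/
theorem conj_b (hF : Fintype.card F = q ^ 2) (hp : HP q a b) {c : Fin n → F}
    (hca : Cfsg.hermForm n F q c a = 0) (hcb : Cfsg.hermForm n F q c b = 0)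
    {t : ↥(Cfsg.SU n F q)} (ht : t ∈ X q c) {l : F}
    (hl : ∀ v, mt t *ᵥ v = v + (l * Cfsg.hermForm n F q v c) • c)
    {u : ↥(Cfsg.SU n F q)} (hu : u ∈ Q q a) :
    t * u * t⁻¹ ∈ Q q a ∧ mt (t * u * t⁻¹) *ᵥ b =
      b + (wc q a b u + (l * Cfsg.hermForm n F q (wc q a b u) c) • c) + kc q b u • a := by
  have hac := herm_zero_comm hF hca
  have hbc := herm_zero_comm hF hcb
  constructor
  · have := Cfsg.Agent.Lib.Helper50.AutPSUGeom.conj_mem_Q t hu
    rwa [ht a hac] at this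
  · rw [mt_mul_mulVec, mt_mul_mulVec, (Subgroup.inv_mem _ ht) b hbc, gb_eq a b u, hl]
    simp only [hermForm_add_left, hermForm_smul_left, hac, hbc]
    module

theorem wc_conj (hF : Fintype.card F = q ^ 2) (hp : HP q a b) {c : Fin n → F}
    (hca : Cfsg.hermForm n F q c a = 0) (hcb : Cfsg.hermForm n F q c b = 0)
    {t : ↥(Cfsg.SU n F q)} (ht : t ∈ X q c) {l : F}
    (hl : ∀ v, mt t *ᵥ v = v + (l * Cfsg.hermForm n F q v c) • c)
    {u : ↥(Cfsg.SU n F q)} (hu : u ∈ Q q a) :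
    wc q a b (t * u * t⁻¹) = wc q a b u + (l * Cfsg.hermForm n F q (wc q a b u) c) • c ∧
    kc q b (t * u * t⁻¹) = kc q b u := by
  have h := (conj_b hF hp hca hcb ht hl hu).2
  have hb : Cfsg.hermForm n F q
      (wc q a b u + (l * Cfsg.hermForm n F q (wc q a b u) c) • c) b = 0 := by
    rw [hermForm_add_left, hermForm_smul_left, hcb, wc_b hp, mul_zero, add_zero]
  exact ⟨wc_of hF hp hb h, kc_of hF hp hb h⟩

theorem T1_ne_zero (hF : Fintype.card F = q ^ 2) (hN : Nrm β a b) (w : ↥(Wsub q a b))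
    (hw : hW w w = 0) (hw0 : w ≠ 0) : T1 hF hN.hp β w 0 ≠ 0 := by
  intro h
  have hk : (0 : F) + 0 ^ q + hW w w = 0 := by
    rw [hw, zero_pow (q_ne_zero hF)]; ring
  have hwc : wc q a b (lq β a (el hF hN.hp w 0)) = 0 := congrArg Subtype.val h
  have hm := kc_rel hF hN.hp (lq_mem β a (el hF hN.hp w 0))
  rw [hwc, herm_zero_left, add_zero] at hm
  have hy : lq β a (el hF hN.hp w 0) ∈ X q a := by
    rw [← el_eq hF hN.hp (lq_mem β a (el hF hN.hp w 0)), hwc]
    exact el_zero_mem_X hF hN.hp hm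
  obtain ⟨x0, hx0, e⟩ := surj_of_maps hF β hN.hp.isoA hN.Xa _ hy
  have e1 := lq_unique hF hN (X_le_Q hN.hp.a0 hx0) (lq_mem β a _) e
  have e2 := lq_inj hF hN (X_le_Q hN.hp.a0 hx0) (el_mem hF hN.hp _ _) e1
  rw [e2] at hx0
  have := wc_of_mem_X hF hN.hp hx0
  rw [wc_el hF hN.hp (inH_W w hk)] at this
  exact hw0 (Subtype.ext this)

/-- RUNG ISO -/
theorem t_iso (hF : Fintype.card F = q ^ 2) (hPerm : PermStmt n F q)
    (hN : Nrm β a b) (w : ↥(Wsub q a b)) (hw : hW w w = 0) (x : F) :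
    ∃ y : F, T1 hF hN.hp β (x • w) 0 = y • T1 hF hN.hp β w 0 := by
  by_cases hw0 : w = 0
  · subst hw0
    exact ⟨1, by rw [smul_zero, one_smul]⟩
  have hp := hN.hp
  have hc : Iso q (w : Fin n → F) := ⟨fun h => hw0 (Subtype.ext h), hw⟩
  obtain ⟨c', hc', hXc, -⟩ := hPerm β _ hc
  have hc'a : Cfsg.hermForm n F q c' a = 0 :=
    perp_transfer hF β hc hp.isoA hc' hp.isoA w.2.1 hXc hN.Xa
  have hc'b : Cfsg.hermForm n F q c' b = 0 :=
    perp_transfer hF β hc (hp.isoB hF) hc' (hp.isoB hF) w.2.2 hXc hN.Xb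
  obtain ⟨t, ht, ht1⟩ := exists_X_ne_one hF hc
  obtain ⟨t', ht', et⟩ := hXc t ht
  obtain ⟨l, hl, htf⟩ := (mem_X_iff' hF hc t).1 ht
  have hl0 : l ≠ 0 := l_ne_zero ht1 htf
  obtain ⟨l', hl', ht'f⟩ := (mem_X_iff' hF hc' t').1 ht'
  -- the key claim
  have key : ∀ x : F, ∃ y : F, ((T1 hF hN.hp β (x • w) 0 : ↥(Wsub q a b)) : Fin n → F) = y • c' := by
    intro x
    obtain ⟨e, hea, heb, hwe⟩ := W_nondeg hF hp w.2.1 w.2.2 hc.1
    have hew : Cfsg.hermForm n F q e w = 1 := by rw [← hermForm_conj hF, hwe, one_pow]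
    let w0 : ↥(Wsub q a b) := (x * l⁻¹) • ⟨e, hea, heb⟩
    have hw0w : l * hW w0 w = x := by
      have : hW w0 w = x * l⁻¹ * Cfsg.hermForm n F q e w := hW_smul _ _ _
      rw [this, hew]
      field_simp
    obtain ⟨k0, hk0⟩ := exists_trace_eq hF (- hW w0 w0) (by
      rw [neg_pow_q hF, hW_conj hF])
    have hk0' : k0 + k0 ^ q + hW w0 w0 = 0 := by rw [hk0]; ring
    have hI := inH_W w0 hk0'
    set u := el hF hN.hp (w0 : Fin n → F) k0 with hu
    have huQ : u ∈ Q q a := el_mem hF hN.hp _ _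
    have h1 := wc_conj hF hp w.2.1 w.2.2 ht htf huQ
    have h1Q := (conj_b hF hp w.2.1 w.2.2 ht htf huQ).1
    rw [wc_el hF hN.hp hI, kc_el hF hN.hp hI] at h1
    have h2 := wc_conj hF hp hc'a hc'b ht' ht'f (lq_mem β a u)
    have h2Q := (conj_b hF hp hc'a hc'b ht' ht'f (lq_mem β a u)).1
    have e3 : lq β a (t * u * t⁻¹) = t' * lq β a u * t'⁻¹ := by
      apply lq_unique hF hN h1Q h2Q
      rw [pm_mul, pm_mul, pm_inv, map_mul, map_mul, map_inv, et, lq_spec hN huQ, pm_mul, pm_mul,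
        pm_inv]
    -- `t u t⁻¹ = el (w0 + x w) k0`
    have hx' : l * Cfsg.hermForm n F q (w0 : Fin n → F) (w : Fin n → F) = x := hw0w
    rw [hx'] at h1
    have e4 : t * u * t⁻¹ = el hF hN.hp ((w0 + x • w : ↥(Wsub q a b)) : Fin n → F) k0 := by
      rw [← el_eq hF hN.hp h1Q, h1.1, h1.2]
      rfl
    have hI2 : k0 + k0 ^ q + hW (w0 + x • w) (w0 + x • w) = 0 := by
      have := kc_rel hF hN.hp h1Q
      rw [h1.1, h1.2] at this
      exact this
    have hxw : (0 : F) + 0 ^ q + hW (x • w) (x • w) = 0 := by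
      have : hW (x • w) (x • w) = x * (x ^ q * hW w w) := by
        simp only [hW, Submodule.coe_smul, hermForm_smul_left, hermForm_smul_right]
        ring
      rw [this, hw, zero_pow (q_ne_zero hF)]; ring
    have h5 := (t_mul hF hN w0 k0 (x • w) 0 hk0' hxw).1
    have hI3 : (k0 + 0 - hW (x • w) w0) + (k0 + 0 - hW (x • w) w0) ^ q +
        hW (w0 + x • w) (w0 + x • w) = 0 :=
      (inH_mul hF hN.hp hI (inH_W (x • w) hxw)).2.2
    rw [T1_indep hF hN (w0 + x • w) k0 _ hI2 hI3] at h5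
    have h6 : ((T1 hF hN.hp β (w0 + x • w) k0 : ↥(Wsub q a b)) : Fin n → F) =
        wc q a b (lq β a u) + (l' * Cfsg.hermForm n F q (wc q a b (lq β a u)) c') • c' := by
      rw [← h2.1, ← e3, e4]
      rfl
    have h7 := congrArg Subtype.val h5
    rw [h6] at h7
    refine ⟨l' * Cfsg.hermForm n F q (wc q a b (lq β a u)) c', ?_⟩
    have h8 : ((T1 hF hN.hp β w0 k0 + T1 hF hN.hp β (x • w) 0 : ↥(Wsub q a b)) : Fin n → F) =
      wc q a b (lq β a u) + ((T1 hF hN.hp β (x • w) 0 : ↥(Wsub q a b)) : Fin n → F) := rfl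
    rw [h8] at h7
    exact (add_left_cancel h7).symm
  obtain ⟨y0, hy0⟩ := key 1
  rw [one_smul] at hy0
  have hy00 : y0 ≠ 0 := by
    rintro rfl
    rw [zero_smul] at hy0
    exact T1_ne_zero hF hN w hw hw0 (Subtype.ext hy0)
  obtain ⟨y, hy⟩ := key x
  refine ⟨y * y0⁻¹, ?_⟩
  apply Subtype.ext
  rw [hy, Submodule.coe_smul, hy0, smul_smul, inv_mul_cancel_right₀ hy00]

end Cfsg.Agent.Lib.Helper99.AutPSU
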