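import Cfsg.Agent.Lib.Helper99.AutPSU.Norm

set_option autoImplicit false
set_option linter.unusedSectionVars false
set_option linter.unusedVariables false
set_option linter.unusedSimpArgs false

/-!
The action of a normalised automorphism on `Q a` in coordinates.
-/

namespace Cfsg.Agent.Lib.Helper99.AutPSU

open Matrix MatrixGroups Cfsg.Agent.Lib.Helper17
open Classical

variable {F : Type*} [Field F] [Fintype F] {n q : ℕ}

/-- validity of coordinates -/
def InH (q : ℕ) (a b w : Fin n → F) (k : F) : Prop :=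
  Cfsg.hermForm n F q w a = 0 ∧ Cfsg.hermForm n F q w b = 0 ∧
    k + k ^ q + Cfsg.hermForm n F q w w = 0

/-- the element of `Q a` with coordinates `(w,k)` -/
noncomputable def el (hF : Fintype.card F = q ^ 2) {a b : Fin n → F} (hp : HP q a b)
    (w : Fin n → F) (k : F) : ↥(Cfsg.SU n F q) :=
  if h : InH q a b w k then (exists_Q hF hp w k h.1 h.2.1 h.2.2).choose else 1

theorem el_mem (hF : Fintype.card F = q ^ 2) {a b : Fin n → F} (hp : HP q a b)
    (w : Fin n → F) (k : F) : el hF hp w k ∈ Q q a := by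
  unfold el
  split_ifs with h
  · exact (exists_Q hF hp w k h.1 h.2.1 h.2.2).choose_spec.1
  · exact Subgroup.one_mem _

theorem el_b (hF : Fintype.card F = q ^ 2) {a b : Fin n → F} (hp : HP q a b)
    {w : Fin n → F} {k : F} (h : InH q a b w k) : mt (el hF hp w k) *ᵥ b = b + w + k • a := by
  unfold el
  rw [dif_pos h]
  exact (exists_Q hF hp w k h.1 h.2.1 h.2.2).choose_spec.2

theorem kc_el (hF : Fintype.card F = q ^ 2) {a b : Fin n → F} (hp : HP q a b)
    {w : Fin n → F} {k : F} (h : InH q a b w k) : kc q b (el hF hp w k) = k :=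
  kc_of hF hp h.2.1 (el_b hF hp h)

theorem wc_el (hF : Fintype.card F = q ^ 2) {a b : Fin n → F} (hp : HP q a b)
    {w : Fin n → F} {k : F} (h : InH q a b w k) : wc q a b (el hF hp w k) = w :=
  wc_of hF hp h.2.1 (el_b hF hp h)

theorem inH_of_mem (hF : Fintype.card F = q ^ 2) {a b : Fin n → F} (hp : HP q a b)
    {g : ↥(Cfsg.SU n F q)} (hg : g ∈ Q q a) : InH q a b (wc q a b g) (kc q b g) :=
  ⟨wc_a hF hp hg, wc_b hp g, kc_rel hF hp hg⟩

theorem el_eq (hF : Fintype.card F = q ^ 2) {a b : Fin n → F} (hp : HP q a b)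
    {g : ↥(Cfsg.SU n F q)} (hg : g ∈ Q q a) : el hF hp (wc q a b g) (kc q b g) = g := by
  apply Q_ext hF hp (el_mem hF hp _ _) hg
  rw [el_b hF hp (inH_of_mem hF hp hg), ← gb_eq]

/-- coordinates of a product -/
theorem Q_mul_b (hF : Fintype.card F = q ^ 2) {a b : Fin n → F} (hp : HP q a b)
    {y y' : ↥(Cfsg.SU n F q)} (hy : y ∈ Q q a) (hy' : y' ∈ Q q a) :
    mt (y * y') *ᵥ b = b + (wc q a b y + wc q a b y') +
      (kc q b y + kc q b y' - Cfsg.hermForm n F q (wc q a b y') (wc q a b y)) • a := by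
  have h1 := wc_a hF hp hy'
  rw [mt_mul_mulVec, gb_eq a b y', Q_formula hF hp hy]
  simp only [hermForm_add_left, hermForm_smul_left, hp.a0, hp.ba hF, h1,
    herm_zero_comm hF (wc_a hF hp hy), herm_zero_comm hF (wc_b hp y)]
  module

theorem kc_mul (hF : Fintype.card F = q ^ 2) {a b : Fin n → F} (hp : HP q a b)
    {y y' : ↥(Cfsg.SU n F q)} (hy : y ∈ Q q a) (hy' : y' ∈ Q q a) :
    kc q b (y * y') = kc q b y + kc q b y' - Cfsg.hermForm n F q (wc q a b y') (wc q a b y) :=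
  kc_of hF hp (by rw [hermForm_add_left, wc_b hp, wc_b hp, add_zero]) (Q_mul_b hF hp hy hy')

theorem wc_mul (hF : Fintype.card F = q ^ 2) {a b : Fin n → F} (hp : HP q a b)
    {y y' : ↥(Cfsg.SU n F q)} (hy : y ∈ Q q a) (hy' : y' ∈ Q q a) :
    wc q a b (y * y') = wc q a b y + wc q a b y' :=
  wc_of hF hp (by rw [hermForm_add_left, wc_b hp, wc_b hp, add_zero]) (Q_mul_b hF hp hy hy')

theorem inH_mul (hF : Fintype.card F = q ^ 2) {a b : Fin n → F} (hp : HP q a b)
    {w w' : Fin n → F} {k k' : F} (h : InH q a b w k) (h' : InH q a b w' k') :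
    InH q a b (w + w') (k + k' - Cfsg.hermForm n F q w' w) := by
  have := inH_of_mem hF hp (Subgroup.mul_mem _ (el_mem hF hp w k) (el_mem hF hp w' k'))
  rwa [wc_mul hF hp (el_mem hF hp w k) (el_mem hF hp w' k'),
    kc_mul hF hp (el_mem hF hp w k) (el_mem hF hp w' k'), wc_el hF hp h, wc_el hF hp h',
    kc_el hF hp h, kc_el hF hp h'] at this

theorem el_mul (hF : Fintype.card F = q ^ 2) {a b : Fin n → F} (hp : HP q a b)
    {w w' : Fin n → F} {k k' : F} (h : InH q a b w k) (h' : InH q a b w' k') :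
    el hF hp (w + w') (k + k' - Cfsg.hermForm n F q w' w) = el hF hp w k * el hF hp w' k' := by
  apply Q_ext hF hp (el_mem hF hp _ _) (Subgroup.mul_mem _ (el_mem hF hp w k) (el_mem hF hp w' k'))
  rw [el_b hF hp (inH_mul hF hp h h'), Q_mul_b hF hp (el_mem hF hp w k) (el_mem hF hp w' k'),
    wc_el hF hp h, wc_el hF hp h', kc_el hF hp h, kc_el hF hp h']

/-! ### the lift of `β` to `Q a` -/

/-- the lift of `β` on `Q a` -/
noncomputable def lq (β : MulAut (Cfsg.PSU n F q)) (a : Fin n → F) (x : ↥(Cfsg.SU n F q)) :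
    ↥(Cfsg.SU n F q) :=
  if h : ∃ y ∈ Q q a, β (pm x) = pm y then h.choose else 1

theorem lq_mem (β : MulAut (Cfsg.PSU n F q)) (a : Fin n → F) (x : ↥(Cfsg.SU n F q)) :
    lq β a x ∈ Q q a := by
  unfold lq
  split_ifs with h
  · exact h.choose_spec.1
  · exact Subgroup.one_mem _

section
variable {β : MulAut (Cfsg.PSU n F q)} {a b : Fin n → F}

theorem lq_spec (hN : Nrm β a b) {x : ↥(Cfsg.SU n F q)} (hx : x ∈ Q q a) :
    β (pm x) = pm (lq β a x) := by
  unfold lq
  rw [dif_pos (hN.Qa x hx)]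
  exact (hN.Qa x hx).choose_spec.2

theorem lq_unique (hF : Fintype.card F = q ^ 2) (hN : Nrm β a b) {x y : ↥(Cfsg.SU n F q)}
    (hx : x ∈ Q q a) (hy : y ∈ Q q a) (h : β (pm x) = pm y) : lq β a x = y :=
  Q_eq_of_pm_eq hF hN.hp.a_ne (lq_mem β a x) hy (by rw [← lq_spec hN hx, h])

theorem lq_mul (hF : Fintype.card F = q ^ 2) (hN : Nrm β a b) {x x' : ↥(Cfsg.SU n F q)}
    (hx : x ∈ Q q a) (hx' : x' ∈ Q q a) : lq β a (x * x') = lq β a x * lq β a x' := by
  apply lq_unique hF hN (Subgroup.mul_mem _ hx hx')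
    (Subgroup.mul_mem _ (lq_mem β a x) (lq_mem β a x'))
  rw [pm_mul, map_mul, lq_spec hN hx, lq_spec hN hx', pm_mul]

theorem lq_inj (hF : Fintype.card F = q ^ 2) (hN : Nrm β a b) {x x' : ↥(Cfsg.SU n F q)}
    (hx : x ∈ Q q a) (hx' : x' ∈ Q q a) (h : lq β a x = lq β a x') : x = x' := by
  apply Q_eq_of_pm_eq hF hN.hp.a_ne hx hx'
  apply β.injective
  rw [lq_spec hN hx, lq_spec hN hx', h]

theorem lq_mem_X (hF : Fintype.card F = q ^ 2) (hN : Nrm β a b) {x : ↥(Cfsg.SU n F q)}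
    (hx : x ∈ X q a) : lq β a x ∈ X q a := by
  obtain ⟨y, hy, e⟩ := hN.Xa x hx
  rw [lq_unique hF hN (X_le_Q hN.hp.a0 hx) (X_le_Q hN.hp.a0 hy) e]
  exact hy

end

theorem wc_of_mem_X (hF : Fintype.card F = q ^ 2) {a b : Fin n → F} (hp : HP q a b)
    {y : ↥(Cfsg.SU n F q)} (hy : y ∈ X q a) : wc q a b y = 0 := by
  obtain ⟨l, -, hl⟩ := (mem_X_iff hF hp y).1 hy
  apply wc_of hF hp (k := l) (herm_zero_left b)
  rw [hl, hp.ba hF, mul_one, add_zero]

theorem el_zero_mem_X (hF : Fintype.card F = q ^ 2) {a b : Fin n → F} (hp : HP q a b)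
    {l : F} (hl : l + l ^ q = 0) : el hF hp 0 l ∈ X q a := by
  have h : InH q a b 0 l := ⟨herm_zero_left a, herm_zero_left b, by rw [herm_zero_left, hl, add_zero]⟩
  intro v hv
  rw [Q_formula hF hp (el_mem hF hp 0 l), wc_el hF hp h, hv, herm_zero_right hF]
  simp

end Cfsg.Agent.Lib.Helper99.AutPSU
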